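import Cfsg.Agent.H513.XC.Lt
import Cfsg.Agent.H443.XC.Defs

/-!
# S4791, S4927, classical rows: small dimensions, simple groups (helper513)

`BlkDim.sp`, `BlkDim.su` : `E = dSp p |F|` (`τ = 1`), `E = dSU p q` (`|F| = q²`, `τ = q`).

`φ : H → G` injective, `π : H → S` surjective: `abSyl_of_lt`, `cyc_of_lt`.
-/

set_option autoImplicit false
set_option linter.unusedSectionVars false

namespace Cfsg.Agent.H513.XC

open Submodule Module
open Cfsg.Agent.H324.AP
open Cfsg.Agent.H443.XC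

universe u v w w'

theorem BlkDim.sp {F : Type u} [Field F] {p r : ℕ} [hp : Fact p.Prime] (hp2 : p ≠ 2) :
    BlkDim F p r 0 (dSp p (Nat.card F)) where
  two := by
    unfold dSp
    split_ifs <;> omega
  one := by
    intro j hj
    rw [pow_zero, Nat.cast_one, neg_mul, one_mul] at hj
    have h1 : ((Nat.card F : ℕ) : ZMod p) ^ j = -1 := by rw [← hj, neg_neg]
    have h2 : Even (orderOf ((Nat.card F : ℕ) : ZMod p)) := by
      by_contra hodd
      rw [Nat.not_even_iff_odd] at hodd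
      have h3 : orderOf ((Nat.card F : ℕ) : ZMod p) ∣ j * 2 := by
        apply orderOf_dvd_of_pow_eq_one
        rw [pow_mul, h1, neg_one_sq]
      have h4 : orderOf ((Nat.card F : ℕ) : ZMod p) ∣ j :=
        (Nat.Coprime.dvd_of_dvd_mul_right (Nat.Coprime.symm (Nat.coprime_two_left.2 hodd)) h3)
      have h5 := orderOf_dvd_iff_pow_eq_one.1 h4
      rw [h1] at h5
      have h6 : (2 : ZMod p) = 0 := by
        have h7 : (1 : ZMod p) + 1 = 0 := by
          nth_rewrite 1 [← h5]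
          ring
        rw [← h7]; norm_num
      have h7 : ((2 : ℕ) : ZMod p) = 0 := by exact_mod_cast h6
      rw [ZMod.natCast_eq_zero_iff] at h7
      exact hp2 ((Nat.prime_dvd_prime_iff_eq hp.out Nat.prime_two).1 h7)
    unfold dSp
    rw [if_pos h2]

theorem BlkDim.su {F : Type u} [Field F] {p r s : ℕ} (hF : Nat.card F = (r ^ s) ^ 2) :
    BlkDim F p r s (dSU p (r ^ s)) := by
  have e1 : ((Nat.card F : ℕ) : ZMod p) = (-((r ^ s : ℕ) : ZMod p)) ^ 2 := by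
    rw [hF, Nat.cast_pow, neg_sq]
  refine ⟨?_, fun j hj => ?_⟩
  · unfold dSU
    rw [e1]
    have h1 : (-((r ^ s : ℕ) : ZMod p)) ^ (2 * orderOf ((-((r ^ s : ℕ) : ZMod p)) ^ 2)) = 1 := by
      rw [pow_mul, pow_orderOf_eq_one]
    rcases Nat.eq_zero_or_pos (orderOf ((-((r ^ s : ℕ) : ZMod p)) ^ 2)) with h2 | h2
    · have h3 : orderOf (-((r ^ s : ℕ) : ZMod p)) = 0 := by
        rw [orderOf_eq_zero_iff'] at h2 ⊢
        intro n hn h4
        refine h2 n hn ?_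
        rw [← pow_mul, mul_comm, pow_mul, h4, one_pow]
      omega
    · exact Nat.le_of_dvd (by omega) (orderOf_dvd_of_pow_eq_one h1)
  · unfold dSU
    rw [e1]
    rw [e1, ← pow_mul, ← pow_succ'] at hj
    have h1 : orderOf (-((r ^ s : ℕ) : ZMod p)) ∣ 2 * j + 1 := orderOf_dvd_of_pow_eq_one hj
    have h2 : Nat.Coprime (orderOf (-((r ^ s : ℕ) : ZMod p))) 2 := by
      refine Nat.Coprime.coprime_dvd_left h1 ?_
      rw [Nat.coprime_two_right]
      exact ⟨j, rfl⟩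
    exact (Nat.Coprime.orderOf_pow h2).ge

section trans

variable {p : ℕ} [hp : Fact p.Prime] {F : Type u} [Field F] [Finite F] {r s : ℕ} [Fact r.Prime] [CharP F r]
  {V : Type v} [AddCommGroup V] [Module F V] [Finite V] {τ : F →+* F} {B : V → V → F} {G : Subgroup (V ≃ₗ[F] V)} {E : ℕ}
  {H : Type w} [Group H] {S : Type w'} [Group S]

theorem ne_zero_of_ne (hrp : r ≠ p) : (p : F) ≠ 0 := by
  intro h0
  have h1 := (CharP.cast_eq_zero_iff F r p).1 h0
  exact hrp ((Nat.prime_dvd_prime_iff_eq Fact.out Fact.out).1 h1)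

theorem exists_syl (φ : H →* (V ≃ₗ[F] V)) (hφ : Function.Injective φ) (π : H →* S) (hπ : Function.Surjective π) (P : Sylow p S) :
    ∃ P' : Sylow p H, (P' : Subgroup H).map π = P := by
  have hfin : Finite (V ≃ₗ[F] V) := Finite.of_injective (fun g : V ≃ₗ[F] V => (g : V → V)) DFunLike.coe_injective
  have hHfin : Finite H := Finite.of_injective φ hφ
  obtain ⟨P', hP'⟩ := Sylow.mapSurjective_surjective hπ p P
  exact ⟨P', by rw [← hP']; rfl⟩

/-- **(D6)** -/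
theorem abSyl_of_lt (hrp : r ≠ p) (h : SplF τ B G) (hτ : ∀ a, τ a = a ^ (r ^ s)) (hE : BlkDim F p r s E)
    (φ : H →* (V ≃ₗ[F] V)) (hφ : Function.Injective φ) (hG : ∀ x, φ x ∈ G) (π : H →* S) (hπ : Function.Surjective π)
    (hlt : finrank F V < p * E) : AbSyl p S := by
  intro P
  obtain ⟨P', hP'⟩ := exists_syl φ hφ π hπ P
  have h1 := abelian_of_lt (ne_zero_of_ne (F := F) hrp) h hτ hE (P := (P' : Subgroup H).map φ)
    (by rintro _ ⟨z, -, rfl⟩; exact hG z) (P'.2.map φ) (by omega)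
  rw [← hP']
  rintro _ ⟨a, ha, rfl⟩ _ ⟨b, hb, rfl⟩
  have h2 := h1 _ (Subgroup.mem_map_of_mem φ ha) _ (Subgroup.mem_map_of_mem φ hb)
  rw [← map_mul, ← map_mul] at h2
  rw [← map_mul, ← map_mul, hφ h2]

/-- **(D6)** -/
theorem cyc_of_lt (hrp : r ≠ p) (h : SplF τ B G) (hτ : ∀ a, τ a = a ^ (r ^ s)) (hE : BlkDim F p r s E)
    (φ : H →* (V ≃ₗ[F] V)) (hφ : Function.Injective φ) (hG : ∀ x, φ x ∈ G) (π : H →* S) (hπ : Function.Surjective π)
    (hlt : finrank F V < 2 * E) (P : Sylow p S) : IsCyclic (P : Subgroup S) := by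
  obtain ⟨P', hP'⟩ := exists_syl φ hφ π hπ P
  have h1 := cyclic_of_lt (ne_zero_of_ne (F := F) hrp) h hτ hE (P := (P' : Subgroup H).map φ)
    (by rintro _ ⟨z, -, rfl⟩; exact hG z) (P'.2.map φ) (by omega)
  obtain ⟨⟨z, hz⟩, hgen⟩ := h1.exists_generator
  obtain ⟨y, hy, rfl⟩ := Subgroup.mem_map.1 hz
  have hyP : π y ∈ (P : Subgroup S) := by rw [← hP']; exact Subgroup.mem_map_of_mem π hy
  refine ⟨⟨⟨π y, hyP⟩, fun c => ?_⟩⟩
  obtain ⟨c, hc⟩ := c
  have hc' := hc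
  rw [← hP'] at hc'
  obtain ⟨c', hc1, rfl⟩ := Subgroup.mem_map.1 hc'
  obtain ⟨n, hn⟩ := Subgroup.mem_zpowers_iff.1 (hgen ⟨φ c', Subgroup.mem_map_of_mem φ hc1⟩)
  have h2 : φ (y ^ n) = φ c' := by
    rw [map_zpow]
    exact congrArg Subtype.val hn
  refine Subgroup.mem_zpowers_iff.2 ⟨n, Subtype.ext ?_⟩
  change (π y) ^ n = π c'
  rw [← hφ h2, map_zpow]

/-- a fixed space: `P` not cyclic -/
theorem two_le (hrp : r ≠ p) (h : SplF τ B G) (hτ : ∀ a, τ a = a ^ (r ^ s)) (hE : BlkDim F p r s E)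
    {P : Subgroup (V ≃ₗ[F] V)} (hPG : P ≤ G) (hP : IsPGroup p P) (hnc : ¬ IsCyclic P) :
    finrank F (fixP P) + 2 * E ≤ finrank F V := by
  by_contra hcon
  exact hnc (cyclic_of_lt (ne_zero_of_ne (F := F) hrp) h hτ hE hPG hP (by omega))

/-- a fixed space: `P` not abelian -/
theorem p_le (hrp : r ≠ p) (h : SplF τ B G) (hτ : ∀ a, τ a = a ^ (r ^ s)) (hE : BlkDim F p r s E)
    {P : Subgroup (V ≃ₗ[F] V)} (hPG : P ≤ G) (hP : IsPGroup p P) (hnc : ¬ ∀ a ∈ P, ∀ b ∈ P, a * b = b * a) :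
    finrank F (fixP P) + p * E ≤ finrank F V := by
  by_contra hcon
  exact hnc (abelian_of_lt (ne_zero_of_ne (F := F) hrp) h hτ hE hPG hP (by omega))

end trans

end Cfsg.Agent.H513.XC
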